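/-
The normal basis theorem for Galois extensions of semilocal commutative rings.
-/
import Mathlib

set_option autoImplicit false

namespace Cfsg.Agent.H48.NB

open scoped Pointwise

theorem field_nb (S L : Type*) [Group S] [Fintype S] [Field L] [MulSemiringAction S L]
    [FaithfulSMul S L] : ∃ x : L, ∀ c : S → L, (∀ t, ∑ s, c s * (s * t) • x = 0) → c = 0 := by
  let K := FixedPoints.subfield S L
  let b := IsGalois.normalBasis K L
  refine ⟨b 1, fun c hc => ?_⟩
  let Φ : L →ₗ[K] L := ∑ s, c s • (MulSemiringAction.toAlgAut S K L s).toLinearMap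
  have h0 : Φ = 0 := b.ext fun σ => by
    obtain ⟨t, rfl⟩ := FixedPoints.toAlgAut_surjective S L σ
    rw [IsGalois.normalBasis_apply]
    simpa [Φ, LinearMap.sum_apply, mul_smul] using hc t
  have li := (linearIndependent_monoidHom L L).comp
    (fun s : S => (MulSemiringAction.toRingHom S L s).toMonoidHom)
    fun s t e => eq_of_smul_eq_smul (α := L) fun x => DFunLike.congr_fun e x
  refine funext (Fintype.linearIndependent_iff.1 li c (funext fun x => ?_))
  simpa [Φ, LinearMap.sum_apply] using LinearMap.congr_fun h0 x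

variable {H R : Type*} [Group H] [Fintype H] [CommRing R] [MulSemiringAction H R]

theorem local_nb (P : Ideal R) [P.IsMaximal] (hG : ∀ h : H, h ≠ 1 → ∃ r, h • r - r ∉ P) :
    ∃ x : R, ∀ θ, θ - x ∈ P → (∀ u : H, u • P ≠ P → u • θ ∈ P) →
      ∀ d : H → R, (∀ h, ∑ g, d g * (g * h) • θ ∈ P) → ∀ g, d g ∈ P := by
  classical
  let _ := Ideal.Quotient.field P
  let α := Ideal.Quotient.stabilizerHom P (P.under ℤ) H
  let _ := MulSemiringAction.compHom (R ⧸ P) α
  have e : ∀ (s : MulAction.stabilizer H P) (r : R),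
      s • Ideal.Quotient.mk P r = Ideal.Quotient.mk P ((s : H) • r) := fun _ _ => rfl
  have : FaithfulSMul (MulAction.stabilizer H P) (R ⧸ P) := ⟨fun {s t} h => by
    by_contra n
    obtain ⟨r, hr⟩ := hG (t⁻¹ * s : MulAction.stabilizer H P)
      (fun k => n (by rwa [OneMemClass.coe_eq_one, inv_mul_eq_one, eq_comm] at k))
    rw [← Ideal.Quotient.eq, ← e, mul_smul, h, inv_smul_smul] at hr
    exact hr rfl⟩
  obtain ⟨x, hx⟩ := field_nb (MulAction.stabilizer H P) (R ⧸ P)
  obtain ⟨x, rfl⟩ := Ideal.Quotient.mk_surjective x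
  refine ⟨x, fun θ h1 h2 d hd g => ?_⟩
  rw [← Ideal.Quotient.eq.2 h1] at hx
  have := congrFun (hx (fun s => Ideal.Quotient.mk P (d (s * g))) fun t => ?_) 1
  · simpa [Ideal.Quotient.eq_zero_iff_mem] using this
  have k := Ideal.Quotient.eq_zero_iff_mem.2 (hd (g⁻¹ * t))
  rw [← Equiv.sum_comp (Equiv.mulRight g), map_sum, ← Fintype.sum_subtype_add_sum_subtype
    (· ∈ MulAction.stabilizer H P), Finset.sum_eq_zero (s := Finset.univ (α := {x // ¬ _})),
    add_zero] at k
  · simpa [e, mul_assoc] using k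
  · rintro ⟨u, hu⟩ -
    refine Ideal.Quotient.eq_zero_iff_mem.2 (P.mul_mem_left _ (h2 _ fun f => hu ?_))
    simpa [mul_assoc] using mul_mem (MulAction.mem_stabilizer_iff.2 f) (inv_mem t.2)

theorem ring_nb [DecidableEq H] [Finite (MaximalSpectrum R)]
    (hG : ∀ P : Ideal R, P.IsMaximal → ∀ h : H, h ≠ 1 → ∃ r, h • r - r ∉ P) :
    ∃ θ : R, IsUnit (Matrix.of fun g h : H => (g * h) • θ) := by
  classical
  let rep : Ideal R → Ideal R := fun P => (Quotient.mk (MulAction.orbitRel H (Ideal R)) P).out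
  have r1 : ∀ P, ∃ a : H, a • P = rep P := fun P => Quotient.exact (Quotient.out_eq
    (Quotient.mk (MulAction.orbitRel H (Ideal R)) P))
  have r2 : ∀ (a : H) P, rep (a • P) = rep P := fun a P =>
    congrArg Quotient.out (Quotient.sound ⟨a, rfl⟩)
  have mx : ∀ (a : H) (P : Ideal R), P.IsMaximal → (a • P).IsMaximal := fun a P hP =>
    hP.map_bijective (MulSemiringAction.toRingHom H R a) (MulAction.bijective a)
  choose x hx using fun P : MaximalSpectrum R => @local_nb H R _ _ _ _ P.1 P.2 (hG _ P.2)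
  obtain ⟨θ, hθ⟩ := Ideal.exists_forall_sub_mem_ideal (I := fun P : MaximalSpectrum R => P.1)
    (fun P Q n => MaximalSpectrum.isCoprime_of_ne n) fun P => if rep P.1 = P.1 then x P else 0
  refine ⟨θ, (Matrix.isUnit_iff_isUnit_det _).2 ?_⟩
  by_contra n
  obtain ⟨P, hP', hd⟩ := exists_max_ideal_of_mem_nonunits n
  let _ := Ideal.Quotient.field P
  rw [← Ideal.Quotient.eq_zero_iff_mem, RingHom.map_det] at hd
  obtain ⟨c, c0, hc⟩ := Matrix.exists_vecMul_eq_zero_iff.2 hd
  choose d hd using fun g => Ideal.Quotient.mk_surjective (c g)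
  obtain ⟨a, ha⟩ := r1 P
  have e : rep (a • P) = a • P := by rw [r2, ha]
  have k := hx ⟨_, mx a P hP'⟩ θ (by simpa [e] using hθ ⟨_, mx a P hP'⟩) (fun u hu => ?_)
    (fun g => a • d (a⁻¹ * g)) fun h => ?_
  · refine c0 (funext fun g => ?_)
    rw [← hd, Pi.zero_apply, Ideal.Quotient.eq_zero_iff_mem]
    simpa using k (a * g)
  · have := hθ ⟨_, mx u⁻¹ _ (mx a P hP')⟩
    rw [if_neg (by rw [r2, e, eq_inv_smul_iff]; exact hu), sub_zero] at this
    exact Ideal.mem_inv_pointwise_smul_iff.1 this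
  · have := congrFun hc h
    simp only [Matrix.vecMul, dotProduct, ← hd, RingHom.mapMatrix_apply, Matrix.map_apply,
      Matrix.of_apply, ← map_mul, ← map_sum, Pi.zero_apply, Ideal.Quotient.eq_zero_iff_mem] at this
    rw [← Equiv.sum_comp (Equiv.mulLeft a)]
    simpa [Finset.smul_sum, mul_smul] using Ideal.smul_mem_pointwise_smul a _ _ this

end Cfsg.Agent.H48.NB
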