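/-
Modules for Frobenius groups without fixed points of the kernel are free over the complement.
-/
import Cfsg.Agent.H48.NBas

set_option autoImplicit false

namespace Cfsg.Agent.H48.NB

open Subgroup

variable {k V A : Type*} [Field k] [AddCommGroup V] [Module k V] [Group A]

theorem grp [Finite A] {F K : Subgroup A} [F.Normal] (hn : Group.IsNilpotent F) {h : A}
    (h1 : ∀ f ∈ F, ∀ x ∈ K, f * x * f⁻¹ ∈ K) (h2 : ∀ x ∈ K, h * x * h⁻¹ ∈ K)
    (h3 : ∀ f ∈ F, h * f = f * h → f = 1)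
    (h4 : ∀ z ∈ F, (∀ f ∈ F, z⁻¹ * (f * z * f⁻¹) ∈ K) → z⁻¹ * (h * z * h⁻¹) ∈ K) : F ≤ K := by
  have hN : (K.subgroupOf F).Normal := ⟨fun x hx f => h1 f f.2 x hx⟩
  by_contra n
  have : Nontrivial (F ⧸ K.subgroupOf F) :=
    QuotientGroup.nontrivial_iff.2 fun e => n (subgroupOf_eq_top.1 e)
  let Z := (center (F ⧸ K.subgroupOf F)).comap (QuotientGroup.mk' _)
  have mZ : ∀ z : F, z ∈ Z ↔ ∀ f ∈ F, (z : A)⁻¹ * (f * z * f⁻¹) ∈ K := fun z => by
    simp only [Z, mem_comap, mem_center_iff, QuotientGroup.mk'_apply, QuotientGroup.forall_mk,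
      Subtype.forall]
    refine forall₂_congr fun f hf => ?_
    rw [← mul_inv_eq_iff_eq_mul, eq_comm, ← QuotientGroup.mk_mul, ← QuotientGroup.mk_inv,
      ← QuotientGroup.mk_mul, QuotientGroup.eq, mem_subgroupOf]
    rfl
  have cj : ∀ a : A, ∀ f ∈ F, a * f * a⁻¹ ∈ F := fun a f hf => Normal.conj_mem inferInstance f hf a
  let φ : Z → Z := fun z => z⁻¹ * ⟨⟨h * z.1 * h⁻¹, cj _ _ z.1.2⟩, (mZ _).2 fun f hf => by
    have := h2 _ ((mZ _).1 z.2 _ (cj h⁻¹ f hf))
    simpa [mul_assoc] using this⟩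
  have inj : Function.Injective φ := fun x y e => by
    have e' : (x.1 : A)⁻¹ * (h * x.1 * h⁻¹) = (y.1 : A)⁻¹ * (h * y.1 * h⁻¹) :=
      congrArg (fun z : Z => (z.1 : A)) e
    have := h3 (y.1 * (x.1 : A)⁻¹) (mul_mem y.1.2 (inv_mem x.1.2)) (by
      calc h * (y.1 * (x.1 : A)⁻¹) = y.1 * ((y.1 : A)⁻¹ * (h * y.1 * h⁻¹)) * h * (x.1 : A)⁻¹ := by
            group
        _ = _ := by rw [← e']; group)
    exact Subtype.ext (Subtype.ext (mul_inv_eq_one.1 this).symm)
  refine Group.IsNilpotent.center_ne_bot (G := F ⧸ K.subgroupOf F) (eq_bot_iff.2 fun z hz => ?_)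
  obtain ⟨z, rfl⟩ := QuotientGroup.mk_surjective z
  obtain ⟨y, e⟩ := Finite.injective_iff_surjective.1 inj ⟨z, hz⟩
  have e' : (y.1 : A)⁻¹ * (h * y.1 * h⁻¹) = z := congrArg (fun z : Z => (z.1 : A)) e
  exact (QuotientGroup.eq_one_iff z).2 (mem_subgroupOf.2 (e' ▸ h4 _ y.1.2 ((mZ _).1 y.2)))

variable (ρ : Representation k A V) (F : Subgroup A)

/-- the centre of the commutant of `F` -/
def ZC : Subalgebra k (Module.End k V) :=
  Subalgebra.centralizer k (ρ '' F) ⊓ Subalgebra.centralizer k (Subalgebra.centralizer k (ρ '' F))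

variable {ρ F} in
theorem mem_ZC {r : Module.End k V} : r ∈ ZC ρ F ↔ (∀ f ∈ F, ρ f * r = r * ρ f) ∧
    ∀ c, (∀ f ∈ F, ρ f * c = c * ρ f) → c * r = r * c := by
  simp [ZC, Subalgebra.mem_centralizer_iff, Set.mem_centralizer_iff]

instance : CommRing (ZC ρ F) :=
  { (inferInstance : Ring (ZC ρ F)) with
    mul_comm := fun a b => Subtype.ext ((mem_ZC.1 b.2).2 _ (mem_ZC.1 a.2).1) }

theorem cj_comm [F.Normal] (a : A) {c : Module.End k V} (hc : ∀ f ∈ F, ρ f * c = c * ρ f) :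
    ∀ f ∈ F, ρ f * (ρ a * c * ρ a⁻¹) = ρ a * c * ρ a⁻¹ * ρ f := fun f hf => by
  have := hc _ (Normal.conj_mem inferInstance f hf a⁻¹)
  calc ρ f * (ρ a * c * ρ a⁻¹) = ρ a * (ρ (a⁻¹ * f * a⁻¹⁻¹) * c) * ρ a⁻¹ := by
        simp only [← mul_assoc, ← map_mul]; simp
    _ = _ := by rw [this]; simp only [mul_assoc, ← map_mul]; simp

theorem cc (a : A) (c : Module.End k V) : ρ a * (ρ a⁻¹ * c) = c := by
  rw [← mul_assoc, ← map_mul, mul_inv_cancel, map_one, one_mul]

theorem cc' (a : A) (c : Module.End k V) : ρ a⁻¹ * (ρ a * c) = c := by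
  simpa using cc ρ a⁻¹ c

instance [F.Normal] : MulSemiringAction A (ZC ρ F) where
  smul a r := ⟨ρ a * r * ρ a⁻¹, mem_ZC.2 ⟨cj_comm ρ F a (mem_ZC.1 r.2).1, fun c hc => by
    have := (mem_ZC.1 r.2).2 _ (cj_comm ρ F a⁻¹ hc)
    calc c * (ρ a * r * ρ a⁻¹) = ρ a * (ρ a⁻¹ * c * ρ a⁻¹⁻¹ * r) * ρ a⁻¹ := by
          simp only [mul_assoc, cc, inv_inv]
      _ = _ := by
          rw [this]; simp only [mul_assoc, inv_inv, ← map_mul, mul_inv_cancel, map_one, mul_one]⟩⟩
  one_smul r := Subtype.ext (by change ρ 1 * r * ρ 1⁻¹ = r; simp)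
  mul_smul a b r := Subtype.ext (by
    change ρ (a * b) * r * ρ (a * b)⁻¹ = ρ a * (ρ b * r * ρ b⁻¹) * ρ a⁻¹
    simp only [mul_inv_rev, map_mul, mul_assoc])
  smul_zero a := Subtype.ext (by change ρ a * 0 * ρ a⁻¹ = 0; simp)
  smul_add a r s := Subtype.ext (by
    change ρ a * (r + s) * ρ a⁻¹ = ρ a * r * ρ a⁻¹ + ρ a * s * ρ a⁻¹
    rw [mul_add, add_mul])
  smul_one a := Subtype.ext (by change ρ a * 1 * ρ a⁻¹ = 1; rw [mul_one, ← map_mul]; simp)
  smul_mul a r s := Subtype.ext (by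
    change ρ a * (r * s) * ρ a⁻¹ = ρ a * r * ρ a⁻¹ * (ρ a * s * ρ a⁻¹)
    simp only [mul_assoc, cc'])

theorem smul_val [F.Normal] (a : A) (r : ZC ρ F) : (a • r).1 = ρ a * r * ρ a⁻¹ := rfl

theorem gal [FiniteDimensional k V] [Finite A] [F.Normal] (hn : Group.IsNilpotent F)
    (hc : (Nat.card F : k) ≠ 0) (h0 : ∀ v, (∀ f ∈ F, ρ f v = v) → v = 0) {h : A}
    (h3 : ∀ f ∈ F, h * f = f * h → f = 1) (P : Ideal (ZC ρ F)) (hP : P.IsMaximal) :
    ∃ r, h • r - r ∉ P := by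
  by_contra n
  push Not at n
  have : IsArtinianRing (ZC ρ F) := IsArtinianRing.of_finite k _
  obtain ⟨-, x, hx⟩ := isAssociatedPrime_iff.1
    (Module.associatedPrimes.minimalPrimes_annihilator_subset_associatedPrimes (ZC ρ F) (ZC ρ F)
      (by rw [Module.annihilator_eq_bot.2 inferInstance]
          exact P.mem_minimalPrimes_of_krullDimLE_zero))
  let T : Set V := {v | ∀ r ∈ P, r.1 v = 0}
  let K : Subgroup A :=
    { carrier := {a | ∀ v ∈ T, ρ a v = v}
      one_mem' := fun v _ => by simp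
      mul_mem' := fun ha hb v hv => by simp [hb v hv, ha v hv]
      inv_mem' := fun {a} ha v hv => by
        conv_lhs => rw [← ha v hv]
        simp }
  have c1 : ∀ a : A, (∀ r ∈ P, a • r ∈ P) → ∀ x ∈ K, a * x * a⁻¹ ∈ K := fun a ha x hx v hv => by
    have : ρ a⁻¹ v ∈ T := fun r hr => by
      have := congrArg (ρ a⁻¹) (hv _ (ha r hr))
      simpa [smul_val] using this
    simp [hx _ this]
  have c2 : ∀ f ∈ F, ∀ r : ZC ρ F, f • r = r := fun f hf r => Subtype.ext (by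
    rw [smul_val, (mem_ZC.1 r.2).1 f hf, mul_assoc, ← map_mul]; simp)
  have _ := Fintype.ofFinite F
  let av : F → ZC ρ F := fun z => ⟨∑ f : F, ρ (f * z * (f : A)⁻¹), mem_ZC.2 ⟨fun g hg => by
    rw [Finset.mul_sum, Finset.sum_mul, ← Equiv.sum_comp (Equiv.mulLeft ⟨g, hg⟩)
      fun f : F => ρ (f * z * (f : A)⁻¹) * ρ g]
    simp only [← map_mul]; simp [mul_assoc], fun c hc => by
    rw [Finset.mul_sum, Finset.sum_mul]
    exact Finset.sum_congr rfl fun f _ => (hc _ (f * z * f⁻¹).2).symm⟩⟩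
  have a1 : ∀ z : F, (∀ f ∈ F, (z : A)⁻¹ * (f * z * f⁻¹) ∈ K) → ∀ v ∈ T,
      (av z).1 v = (Nat.card F : k) • ρ z v := fun z hz v hv => by
    have : ∀ f : F, ρ (f * z * (f : A)⁻¹) v = ρ z v := fun f => by
      conv_rhs => rw [← hz f f.2 v hv]
      simp
    simp only [av, LinearMap.sum_apply, this]
    simp [Nat.cast_smul_eq_nsmul]
  have le := grp hn (K := K) (h := h) (fun f hf => c1 f fun r hr => (c2 f hf r).symm ▸ hr)
    (c1 h fun r hr => by simpa using P.add_mem (n r) hr) h3 fun z hz h4 v hv => by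
    have e1 := hv _ (n (av ⟨z, hz⟩))
    have e2 : ρ h⁻¹ v ∈ T := fun r hr => by
      have := congrArg (ρ h⁻¹) (hv _ (P.add_mem (n r) hr))
      simpa [smul_val] using this
    simp only [AddSubgroupClass.coe_sub, smul_val, LinearMap.sub_apply, Module.End.mul_apply,
      a1 ⟨z, hz⟩ h4 _ e2, a1 ⟨z, hz⟩ h4 _ hv, map_smul, sub_eq_zero] at e1
    simp [smul_right_injective V hc e1]
  refine hP.ne_top (hx.trans (eq_top_iff.2 fun r _ => ?_))
  have : x = 0 := Subtype.ext (LinearMap.ext fun v => h0 _ fun f hf => le hf _ fun r hr => by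
    rw [hx, Submodule.mem_colon_singleton, Submodule.mem_bot] at hr
    exact LinearMap.congr_fun (congrArg Subtype.val hr) v)
  simp [this]

theorem descent [F.Normal] [DecidableEq A] (H : Subgroup A) [Fintype H] (θ : ZC ρ F)
    (hθ : IsUnit (Matrix.of fun g h : H => (g * h) • θ)) :
    ∃ W : Submodule k V, DirectSum.IsInternal fun h : H => W.map (ρ h) := by
  obtain ⟨N, n1, n2⟩ := isUnit_iff_exists.1 hθ
  have ap : ∀ (X Y : Matrix H H (ZC ρ F)), X * Y = 1 → ∀ (u : H → V) x,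
      ∑ g, (X x g).1 (∑ h, (Y g h).1 (u h)) = u x := fun X Y e u x => by
    simp only [map_sum]
    rw [Finset.sum_comm, Finset.sum_eq_single x (fun h _ n => ?_) (by simp)]
    · simpa [Matrix.mul_apply, LinearMap.sum_apply] using
        LinearMap.congr_fun (congrArg Subtype.val (congrFun₂ e x x)) (u x)
    · simpa [Matrix.mul_apply, LinearMap.sum_apply, Matrix.one_apply_ne n.symm] using
        LinearMap.congr_fun (congrArg Subtype.val (congrFun₂ e x h)) (u h)
  have inj : ∀ u : H → V, (∀ g, ∑ h, ((g * h) • θ).1 (u h) = 0) → ∀ x, u x = 0 := fun u hu x => by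
    simpa [hu] using (ap _ _ n2 u x).symm
  have act : ∀ (g h : H) (u : V), ρ g ((h • θ).1 u) = ((g * h) • θ).1 (ρ g u) := fun g h u => by
    simp [Subgroup.smul_def, smul_val]
  let U := Representation.invariants (ρ.comp H.subtype)
  have mem : ∀ (h : H) v, v ∈ (U.map θ.1).map (ρ h) ↔ ∃ u ∈ U, (h • θ).1 u = v := fun h v => by
    constructor
    · rintro ⟨_, ⟨u, hu, rfl⟩, rfl⟩
      exact ⟨u, hu, by simpa [show ρ h u = u from hu h] using (act h 1 u).symm⟩
    · rintro ⟨u, hu, rfl⟩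
      exact ⟨_, ⟨u, hu, rfl⟩, by simpa [show ρ h u = u from hu h] using act h 1 u⟩
  refine ⟨U.map θ.1, (DirectSum.isInternal_submodule_iff_iSupIndep_and_iSup_eq_top _).2
    ⟨(iSupIndep_iff_finsetSum_eq_zero_imp_eq_zero _).2 fun s v hv e i hi => ?_,
      eq_top_iff.2 fun v _ => ?_⟩⟩
  · choose! u u1 u2 using fun h hh => (mem h _).1 (hv h hh)
    have := inj (fun h => if h ∈ s then u h else 0) (fun g => by
      have := congrArg (ρ g) e
      rw [map_sum, map_zero] at this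
      simp only [apply_ite, map_zero, Finset.sum_ite_mem, Finset.univ_inter]
      rw [← this]
      exact Finset.sum_congr rfl fun h hh => by rw [← u2 h hh, act, show ρ g _ = _ from u1 h hh g]) i
    rw [← u2 i hi, show u i = 0 by simpa [hi] using this, map_zero]
  · let u : H → V := fun h => ∑ g, (N h g).1 (ρ g v)
    have e : ∀ g : H, ∑ h, ((g * h) • θ).1 (u h) = ρ g v := ap _ _ n1 fun g => ρ g v
    have hu : ∀ h, u h ∈ U := fun h x => sub_eq_zero.1 (inj (fun h => ρ x (u h) - u h) (fun g => by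
      have := congrArg (ρ x) (e (x⁻¹ * g))
      simp only [map_sum, act, ← mul_assoc, mul_inv_cancel, one_mul] at this
      simp [Finset.sum_sub_distrib, this, e]) h)
    have := e 1
    simp only [one_mul, OneMemClass.coe_one, map_one, Module.End.one_apply] at this
    rw [← this]
    exact Submodule.sum_mem_iSup fun h => (mem h _).2 ⟨_, hu h, rfl⟩

theorem free [FiniteDimensional k V] [Finite A] [DecidableEq A] [F.Normal] (H : Subgroup A)
    (hn : Group.IsNilpotent F) (hc : (Nat.card F : k) ≠ 0)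
    (h0 : ∀ v, (∀ f ∈ F, ρ f v = v) → v = 0)
    (h3 : ∀ h ∈ H, h ≠ 1 → ∀ f ∈ F, h * f = f * h → f = 1) :
    ∃ W : Submodule k V, DirectSum.IsInternal fun h : H => W.map (ρ h) := by
  have _ := Fintype.ofFinite H
  have : IsArtinianRing (ZC ρ F) := IsArtinianRing.of_finite k _
  obtain ⟨θ, hθ⟩ := ring_nb (H := H) (R := ZC ρ F) fun P hP h n =>
    gal ρ F hn hc h0 (h3 h h.2 (by simpa using n)) P hP
  exact descent ρ F H θ hθ

end Cfsg.Agent.H48.NB
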